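/-
Groups with abelian Sylow 2-intersections (S3186), part 1: the essential subgroups (helper27).
-/
import Cfsg.Agent.Grp.JaWeak
import Cfsg.Agent.Grp.ThompsonNPC
import Cfsg.Agent.Loc.FusAG
import Cfsg.Agent.Gold.Functor

set_option autoImplicit false
open Cfsg Subgroup CL.Even CL.Grp CL.Loc CL.Gold
open scoped commutatorElement

namespace CL.C2Low.AI

variable {G : Type*} [Group G] {S E : Subgroup G}

theorem cm_left (a b x : G) : ⁅a * b, x⁆ = a * ⁅b, x⁆ * a⁻¹ * ⁅a, x⁆ := by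
  simp only [commutatorElement_def]; group

theorem cm_right (a x y : G) : ⁅a, x * y⁆ = ⁅a, x⁆ * (x * ⁅a, y⁆ * x⁻¹) := by
  simp only [commutatorElement_def]; group

theorem cm_eq_one {a x : G} (h : a * x = x * a) : ⁅a, x⁆ = 1 := commutatorElement_eq_one_iff_mul_comm.2 h

theorem cm_conj (g a x : G) : g * ⁅a, x⁆ * g⁻¹ = ⁅g * a * g⁻¹, g * x * g⁻¹⁆ := by
  simp only [commutatorElement_def]; group

/-- Non-abelian subgroups of `S` lie in no other Sylow subgroup. -/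
def Uq (S : Subgroup G) : Prop :=
  ∀ g : G, ∀ x ∈ S, ∀ y ∈ S, g * x * g⁻¹ ∈ S → g * y * g⁻¹ ∈ S → x * y = y * x ∨ g ∈ 𝒩(S)

/-- `N_S(E)` -/
abbrev TT (S E : Subgroup G) : Subgroup G := S ⊓ 𝒩(E)
/-- `C_E(N_S(E))` -/
abbrev ZZ (S E : Subgroup G) : Subgroup G := E ⊓ 𝒞(TT S E)
/-- `O^{2'}(N(E))` -/
abbrev LL (S E : Subgroup G) : Subgroup G := ncl 𝒩(E) (TT S E)
/-- `C_E(O^{2'}(N(E)))` -/
abbrev WW (S E : Subgroup G) : Subgroup G := E ⊓ 𝒞(LL S E)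
/-- the preimage of the Sylow normaliser of `N(E) / C(E)` -/
abbrev XX (S E : Subgroup G) : Subgroup G := 𝒩(E) ⊓ 𝒩(TT S E ⊔ 𝒞(E))

/-- `E` is a proper member of the Alperin-Goldschmidt family. -/
structure Ess (S E : Subgroup G) : Prop where
  syl : IsSylowIn 2 S ⊤
  uq : Uq S
  ag : AGSub 2 S E
  lt : E < S

theorem T_le_X (S E : Subgroup G) : TT S E ≤ XX S E := le_inf inf_le_right (le_norm_of_le le_sup_left)

theorem cent_le_X (S E : Subgroup G) : 𝒞(E) ≤ XX S E := le_inf (cent_le_norm E) (le_norm_of_le le_sup_right)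

theorem norm_le_X (S E : Subgroup G) : 𝒩(E) ⊓ 𝒩(S) ≤ XX S E :=
  le_inf inf_le_left (le_norm_sup (le_norm_inf inf_le_right (le_norm_of_le inf_le_left))
    (inf_le_left.trans (norm_le_norm_cent E)))

theorem W_le_Z (S E : Subgroup G) : WW S E ≤ ZZ S E := inf_le_inf_left E (cent_mono (le_ncl _ _))

theorem norm_le_norm_W (S E : Subgroup G) : 𝒩(E) ≤ 𝒩(WW S E) := le_norm_inf le_rfl (le_norm_cent (le_norm_ncl _ _))

namespace Ess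

variable (h : Ess S E)
include h

theorem le : E ≤ S := h.lt.le

theorem le_T : E ≤ TT S E := le_inf h.le le_normalizer

theorem conj {n : G} (hn : n ∈ 𝒩(S)) : Ess S (cj n E) :=
  ⟨h.syl, h.uq, cj_eq hn ▸ h.ag.conj n, cj_eq hn ▸ CL.Loc.cj_lt_cj.2 h.lt⟩

variable [Finite G]

theorem lt_T : E < TT S E := lt_inf_normalizer_of_isPGroup h.syl.isPGroup h.lt

theorem not_le_X : ¬ 𝒩(E) ≤ XX S E := fun e => h.lt_T.not_ge (h.ag.rad _ h.le_T le_rfl (e.trans inf_le_right))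

theorem ab : E ≤ 𝒞(E) := fun y hy x hx => by
  by_contra hn
  exact h.not_le_X fun g hg => norm_le_X S E ⟨hg, (h.uq g x (h.le hx) y (h.le hy) (h.le (conj_mem hg hx))
    (h.le (conj_mem hg hy))).resolve_left hn⟩

theorem comm {x y : G} (hx : x ∈ E) (hy : y ∈ E) : x * y = y * x := h.ab hy x hx

/-- the strong embedding of `XX S E` -/
theorem se {t g : G} (ht : t ∈ TT S E) (hE : t ∉ E) (hg : g ∈ 𝒩(E)) (e : g * t * g⁻¹ ∈ XX S E) : g ∈ XX S E := by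
  obtain ⟨m, hm⟩ := isPGroup_iff_forall.1 h.syl.isPGroup t ht.1
  obtain ⟨k, hk, e1⟩ := syl_conj_le (h.ag.syl.of_le (T_le_X S E) inf_le_left)
    (isPGroup_zpowers (x := g * t * g⁻¹) (k := m) (by rw [conj_pow, hm]; simp)) (zpowers_le.2 e)
  obtain ⟨x, hx, hc⟩ : ∃ x ∈ E, t * x ≠ x * t := by
    by_contra! hc
    exact hE (h.ag.cent ⟨ht.1, fun x hx => (hc x hx).symm⟩)
  have hkg := mul_mem hk.1 hg
  have h1 := (h.uq (k * g) t ht.1 x (h.le hx) (by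
    simpa [mul_assoc] using (e1 (conj_mem_cj k (mem_zpowers _))).1) (h.le (conj_mem hkg hx))).resolve_left hc
  exact ((XX S E).mul_mem_cancel_left hk).1 (norm_le_X S E ⟨hkg, h1⟩)

theorem Z_eq : TT S E ⊓ 𝒞(TT S E) = ZZ S E :=
  le_antisymm (fun _ hx => ⟨h.ag.cent ⟨hx.1.1, cent_mono h.le_T hx.2⟩, hx.2⟩) (inf_le_inf_right _ h.le_T)

theorem Z_le_cent : ZZ S E ≤ 𝒞(TT S E ⊔ 𝒞(E)) := by
  rw [cent_sup]
  exact le_inf inf_le_right fun x hx c hc => (hc x hx.1).symm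

theorem X_le_normZ : XX S E ≤ 𝒩(ZZ S E) := by
  have : ZZ S E = E ⊓ 𝒞(TT S E ⊔ 𝒞(E)) :=
    le_antisymm (le_inf inf_le_left h.Z_le_cent) (inf_le_inf_left E (cent_mono le_sup_left))
  rw [this]
  exact le_norm_inf inf_le_left (le_norm_cent inf_le_right)

/-- `C_S(Ω₁ E) = E` -/
theorem mem_of_omega {t : G} (ht : t ∈ TT S E) (hc : ∀ x ∈ E, x * x = 1 → t * x = x * t) : t ∈ E := by
  by_contra hE
  have hn : 𝒩(E) ≤ 𝒩(𝒩(E) ⊓ 𝒞(omegaOne 2 E)) :=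
    le_norm_inf le_normalizer (le_norm_cent (normalizer_le_normalizer_omegaOne _))
  have h1 : 𝒩(E) ⊓ 𝒞(omegaOne 2 E) ≤ XX S E := by
    rw [← syl_sup_res (h.ag.syl.inf_of_normalized inf_le_left hn)]
    refine sup_le (inf_le_left.trans (T_le_X S E)) (res_le_of fun x hx ho => cent_le_X S E ?_)
    exact mem_centralizer_of_omegaOne_of_abelian h.ag.isPGroup h.ab hx.1 ho hx.2
  refine h.not_le_X fun g hg => h.se ht hE hg (h1 (conj_mem (hn hg) ⟨ht.2, le_cent_elt_iff.1 ?_⟩))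
  exact omegaOne_le_iff.2 fun x hx h2 => mem_centralizer_singleton_iff.2 (hc x hx (by rwa [← sq])).symm

end Ess

/-- The structure of an essential subgroup which is not the unique abelian subgroup of largest order. -/
structure TB (S E : Subgroup G) : Prop extends Ess S E where
  cl2 : ⁅TT S E, TT S E⁆ ≤ ZZ S E
  nd' : ∀ g ∈ 𝒩(E), g ∉ XX S E → ∀ t ∈ TT S E, ∀ e ∈ E, ⁅t, e⁆ ∈ cj g (ZZ S E) → e ∈ ZZ S E ∨ t ∈ E
  tr : ∀ g ∈ 𝒩(E), g ∉ XX S E → ∀ k ∈ 𝒩(E), k ∉ XX S E → ∃ a ∈ TT S E, g⁻¹ * a * k ∈ XX S E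
  sup : ∀ g ∈ 𝒩(E), g ∉ XX S E → E ≤ ZZ S E ⊔ cj g (ZZ S E)
  surj : ∀ g ∈ 𝒩(E), g ∉ XX S E → ∀ x ∈ E, x ∉ ZZ S E → ∀ y ∈ ZZ S E, ∃ a ∈ TT S E, ⁅a, x⁆ * y⁻¹ ∈ cj g (ZZ S E)
  card : Nat.card (TT S E) * Nat.card (ZZ S E) = Nat.card E * Nat.card E

/-- a quadratic abelian subgroup of largest order -/
structure QA (S E A : Subgroup G) : Prop extends Ess S E where
  mem : A ∈ meaIn 0 (TT S E)
  nle : ¬ A ≤ E
  quad : ⁅E, A⁆ ≤ 𝒞(A)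

namespace QA

variable [Finite G] {A : Subgroup G} (h : QA S E A)
include h

theorem leT : A ≤ TT S E := h.mem.1

theorem abA {a b : G} (ha : a ∈ A) (hb : b ∈ A) : a * b = b * a :=
  le_centralizer_iff_isMulCommutative.2 h.mem.2.1.1 hb a ha

theorem mem_of_cent {e : G} (he : e ∈ E) (hc : e ∈ 𝒞(A)) : e ∈ E ⊓ A :=
  ⟨he, mem_of_mem_meaIn_of_centralizer h.mem (h.le_T he) (pow_zero e) hc⟩

theorem cm_mem {a e : G} (ha : a ∈ A) (he : e ∈ E) : ⁅a, e⁆ ∈ E ⊓ A :=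
  h.mem_of_cent (commutator_le_of_le_norm' (h.leT.trans inf_le_right) (commutator_mem_commutator ha he))
    (h.quad (commutator_comm A E ▸ commutator_mem_commutator ha he))

theorem card_le : Nat.card E ≤ Nat.card A :=
  h.mem.2.2 E h.le_T (ea_zero_iff.2 (le_centralizer_iff_isMulCommutative.1 h.ab))

theorem cj_le {g : G} (hg : g ∈ 𝒩(E)) : cj g (E ⊓ A) ≤ E := cj_le_of_le inf_le_left hg

theorem cm_mul {a y x : G} (ha : a ∈ A) (hy : y ∈ E ⊓ A) (hx : x ∈ E) : ⁅a, y * x⁆ = ⁅a, x⁆ := by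
  rw [cm_right, cm_eq_one (h.abA ha hy.2), one_mul, h.comm hy.1 (h.cm_mem ha hx).1, mul_inv_cancel_right]

theorem not_cj_le {g : G} (hg : g ∈ 𝒩(E)) (hX : g ∉ XX S E) : ¬ cj g (E ⊓ A) ≤ E ⊓ A := fun e => by
  have e' := cj_eq (mem_norm_of_cj_le e)
  obtain ⟨a, ha, haE⟩ := SetLike.not_le_iff_exists.1 h.nle
  have hb : g * a * g⁻¹ ∈ 𝒩(E) := conj_mem (le_normalizer hg) (h.leT ha).2
  have h1 : ∀ x ∈ E, ⁅g * a * g⁻¹, x⁆ ∈ E ⊓ A := fun x hx => by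
    have := conj_mem_cj g (h.cm_mem ha (conj_mem' hg hx))
    rwa [e', cm_conj, show g * (g⁻¹ * x * g) * g⁻¹ = x by group] at this
  have h2 : ∀ z ∈ E ⊓ A, g * a * g⁻¹ * z = z * (g * a * g⁻¹) := fun z hz => by
    have := h.abA ha (mem_cj.1 (e'.ge hz)).2
    calc _ = g * (a * (g⁻¹ * z * g)) * g⁻¹ := by group
      _ = _ := by rw [this]; group
  generalize hbd : g * a * g⁻¹ = b at hb h1 h2
  have h3 : a⁻¹ * (b⁻¹ * a * b) ∈ 𝒞(E) := fun x hx => by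
    have e1 : a * b * x * (a * b)⁻¹ = ⁅b, x⁆ * ⁅a, x⁆ * x := by
      calc _ = a * ⁅b, x⁆ * a⁻¹ * ⁅a, x⁆ * x := by simp only [commutatorElement_def]; group
        _ = _ := by rw [h.abA ha (h1 x hx).2, mul_inv_cancel_right]
    have e2 : b * a * x * (b * a)⁻¹ = ⁅a, x⁆ * ⁅b, x⁆ * x := by
      calc _ = b * ⁅a, x⁆ * b⁻¹ * ⁅b, x⁆ * x := by simp only [commutatorElement_def]; group
        _ = _ := by rw [h2 _ (h.cm_mem ha hx), mul_inv_cancel_right]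
    rw [h.comm (h1 x hx).1 (h.cm_mem ha hx).1, ← e2] at e1
    calc _ = (b * a)⁻¹ * (b * a * x * (b * a)⁻¹) * (a * b) := by group
      _ = _ := by rw [← e1]; group
  have h4 : b⁻¹ ∈ XX S E := h.se (h.leT ha) haE (inv_mem hb) (by
    simpa using mul_mem (T_le_X S E (h.leT ha)) (cent_le_X S E h3))
  exact hX (h.se (h.leT ha) haE hg (hbd ▸ inv_mem_iff.1 h4))

/-- `g` maximises `|Z ∩ Z^g|` -/
def Mx (S E A : Subgroup G) (g : G) : Prop := g ∈ 𝒩(E) ∧ g ∉ XX S E ∧ ∀ k ∈ 𝒩(E), k ∉ XX S E →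
  Nat.card (E ⊓ A ⊓ cj k (E ⊓ A) : Subgroup G) ≤ Nat.card (E ⊓ A ⊓ cj g (E ⊓ A) : Subgroup G)

theorem exists_mx : ∃ g, Mx S E A g := by
  obtain ⟨g, hg, hm⟩ := Set.exists_max_image {g | g ∈ 𝒩(E) ∧ g ∉ XX S E}
    (fun k => Nat.card (E ⊓ A ⊓ cj k (E ⊓ A) : Subgroup G)) (Set.toFinite _) (SetLike.not_le_iff_exists.1 h.not_le_X)
  exact ⟨g, hg.1, hg.2, fun k h1 h2 => hm k ⟨h1, h2⟩⟩

theorem nd_mx {g x a : G} (hg : Mx S E A g) (hx : x ∈ cj g (E ⊓ A)) (hn : x ∉ E ⊓ A) (ha : a ∈ A)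
    (e : ⁅a, x⁆ ∈ cj g (E ⊓ A)) : a ∈ E := by
  by_contra haE
  have hT := inv_mem (h.leT ha)
  have h1 := hg.2.2 (g⁻¹ * a⁻¹ * g) (conj_mem' (le_normalizer hg.1) hT.2) fun e' => hg.2.1 (inv_mem_iff.1
    (h.se hT (mt inv_mem_iff.1 haE) (inv_mem hg.1) (by rwa [inv_inv])))
  rw [← card_cj g, cj_inf, ← cj_mul, show g * (g⁻¹ * a⁻¹ * g) = a⁻¹ * g by group, cj_mul] at h1
  have h2 : E ⊓ A ⊓ cj g (E ⊓ A) ≤ cj g (E ⊓ A) ⊓ cj a⁻¹ (cj g (E ⊓ A)) := fun w hw => ⟨hw.2, mem_cj.2 (by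
    rw [inv_inv, h.abA ha hw.1.2, mul_inv_cancel_right]
    exact hw.2)⟩
  exact hn ((eq_of_le_of_card_ge h2 h1).ge ⟨hx, mem_cj.2 (by simpa [commutatorElement_def] using mul_mem e hx)⟩).1

theorem count {g x : G} (hg : Mx S E A g) (hx : x ∈ cj g (E ⊓ A)) (hn : x ∉ E ⊓ A) : ∃ R ≤ E ⊓ A,
    (∀ r ∈ R, ∃ a ∈ A, ⁅a, x⁆ = r) ∧ Nat.card A * Nat.card (E ⊓ A ⊓ cj g (E ⊓ A) : Subgroup G) =
      Nat.card (E ⊓ A : Subgroup G) * Nat.card (R ⊔ (E ⊓ A ⊓ cj g (E ⊓ A)) : Subgroup G) := by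
  have hxE := h.cj_le hg.1 hx
  let φ : A →* G := MonoidHom.mk' (fun a => ⁅(a : G), x⁆) fun a b => by
    rw [coe_mul, cm_left, h.abA a.2 (h.cm_mem b.2 hxE).2, mul_inv_cancel_right,
      h.comm (h.cm_mem b.2 hxE).1 (h.cm_mem a.2 hxE).1]
  have hR : φ.range ≤ E ⊓ A := by rintro _ ⟨a, rfl⟩; exact h.cm_mem a.2 hxE
  refine ⟨φ.range, hR, by rintro _ ⟨a, rfl⟩; exact ⟨a, a.2, rfl⟩, ?_⟩
  have h1 : (E ⊓ A ⊓ cj g (E ⊓ A)).comap φ = (E ⊓ A).subgroupOf A := by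
    ext a
    refine ⟨fun e => ⟨h.nd_mx hg hx hn a.2 e.2, a.2⟩, fun e => ?_⟩
    rw [mem_comap, show φ a = 1 from cm_eq_one (h.comm e.1 hxE)]
    exact one_mem _
  have h2 := index_comap (E ⊓ A ⊓ cj g (E ⊓ A)) φ
  have hn : φ.range ≤ 𝒩(E ⊓ A ⊓ cj g (E ⊓ A)) :=
    (hR.trans (inf_le_left.trans (h.ab.trans (cent_mono (inf_le_left.trans inf_le_left))))).trans (cent_le_norm _)
  rw [h1, ← relIndex_sup_of_le_normalizer hn] at h2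
  rw [← card_mul_relIndex (inf_le_right : E ⊓ A ≤ A), ← card_mul_relIndex
    (le_sup_right : _ ≤ φ.range ⊔ (E ⊓ A ⊓ cj g (E ⊓ A))), ← h2, relIndex]
  ring

theorem sq_eq {g : G} (hg : g ∈ 𝒩(E)) : Nat.card (E ⊓ A ⊔ cj g (E ⊓ A) : Subgroup G) *
    Nat.card (E ⊓ A ⊓ cj g (E ⊓ A) : Subgroup G) = Nat.card (E ⊓ A : Subgroup G) * Nat.card (E ⊓ A : Subgroup G) := by
  rw [card_sup_mul_card_inf ((inf_le_left.trans (h.ab.trans (cent_mono (h.cj_le hg)))).trans (cent_le_norm _)), card_cj]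

theorem of_mx {g x : G} (hg : Mx S E A g) (hx : x ∈ cj g (E ⊓ A)) (hn : x ∉ E ⊓ A) : Nat.card A = Nat.card E ∧
    E ≤ E ⊓ A ⊔ cj g (E ⊓ A) ∧ ∀ y ∈ E ⊓ A, ∃ a ∈ A, ⁅a, x⁆ * y⁻¹ ∈ E ⊓ A ⊓ cj g (E ⊓ A) := by
  obtain ⟨R, hR, h1, h2⟩ := h.count hg hx hn
  have h3 := h.sq_eq hg.1
  have h4 := card_le_of_le (sup_le hR inf_le_left : R ⊔ (E ⊓ A ⊓ cj g (E ⊓ A)) ≤ E ⊓ A)
  have h5 := card_le_of_le (sup_le inf_le_left (h.cj_le hg.1) : E ⊓ A ⊔ cj g (E ⊓ A) ≤ E)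
  have h6 := h.card_le
  have p1 : 0 < Nat.card (E ⊓ A ⊓ cj g (E ⊓ A) : Subgroup G) := Nat.card_pos
  have p2 : 0 < Nat.card (E ⊓ A : Subgroup G) := Nat.card_pos
  have h7 : Nat.card A ≤ Nat.card (E ⊓ A ⊔ cj g (E ⊓ A) : Subgroup G) :=
    Nat.le_of_mul_le_mul_right (by rw [h2, h3]; gcongr) p1
  have h8 : E ⊓ A ≤ R ⊔ (E ⊓ A ⊓ cj g (E ⊓ A)) := (eq_of_le_of_card_ge (sup_le hR inf_le_left)
    (Nat.le_of_mul_le_mul_left (by rw [← h2, ← h3]; gcongr; omega) p2)).ge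
  refine ⟨by omega, (eq_of_le_of_card_ge (sup_le inf_le_left (h.cj_le hg.1)) (by omega)).ge, fun y hy => ?_⟩
  obtain ⟨r, hr, w, hw, rfl⟩ := (mem_sup_nr ((hR.trans (inf_le_left.trans (h.ab.trans
    (cent_mono (inf_le_left.trans inf_le_left))))).trans (cent_le_norm _))).1 (h8 hy)
  obtain ⟨a, ha, rfl⟩ := h1 r hr
  refine ⟨a, ha, ?_⟩
  rw [h.comm (hR hr).1 hw.1.1, _root_.mul_inv_rev, mul_inv_cancel_left]
  exact inv_mem hw

theorem mx {g : G} (hg : g ∈ 𝒩(E)) (hX : g ∉ XX S E) : Mx S E A g := by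
  obtain ⟨k, hk⟩ := h.exists_mx
  obtain ⟨x, hx, hn⟩ := SetLike.not_le_iff_exists.1 (h.not_cj_le hk.1 hk.2.1)
  have h1 := h.sq_eq hk.1
  rw [le_antisymm (sup_le inf_le_left (h.cj_le hk.1)) (h.of_mx hk hx hn).2.1, ← h.sq_eq hg] at h1
  refine ⟨hg, hX, fun m h2 h3 => (hk.2.2 m h2 h3).trans (Nat.le_of_mul_le_mul_left (h1.le.trans ?_)
    (Nat.card_pos (α := E)))⟩
  exact Nat.mul_le_mul_right _ (card_le_of_le (sup_le inf_le_left (h.cj_le hg)))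

theorem sup {g : G} (hg : g ∈ 𝒩(E)) (hX : g ∉ XX S E) : E ≤ E ⊓ A ⊔ cj g (E ⊓ A) :=
  let ⟨_, hx, hn⟩ := SetLike.not_le_iff_exists.1 (h.not_cj_le hg hX)
  (h.of_mx (h.mx hg hX) hx hn).2.1

theorem exists_mul {g e : G} (hg : g ∈ 𝒩(E)) (hX : g ∉ XX S E) (he : e ∈ E) (hn : e ∉ E ⊓ A) :
    ∃ y ∈ E ⊓ A, ∃ x ∈ cj g (E ⊓ A), x ∉ E ⊓ A ∧ y * x = e := by
  obtain ⟨y, hy, x, hx, rfl⟩ := (mem_sup_nr ((inf_le_left.trans (h.ab.trans (cent_mono (h.cj_le hg)))).trans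
    (cent_le_norm _))).1 (h.sup hg hX he)
  exact ⟨y, hy, x, hx, fun e => hn (mul_mem hy e), rfl⟩

theorem nd {g e a : G} (hg : g ∈ 𝒩(E)) (hX : g ∉ XX S E) (he : e ∈ E) (hn : e ∉ E ⊓ A) (ha : a ∈ A)
    (hc : ⁅a, e⁆ ∈ cj g (E ⊓ A)) : a ∈ E := by
  obtain ⟨y, hy, x, hx, h1, rfl⟩ := h.exists_mul hg hX he hn
  exact h.nd_mx (h.mx hg hX) hx h1 ha (h.cm_mul ha hy (h.cj_le hg hx) ▸ hc)

theorem surj {g e y : G} (hg : g ∈ 𝒩(E)) (hX : g ∉ XX S E) (he : e ∈ E) (hn : e ∉ E ⊓ A) (hy : y ∈ E ⊓ A) :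
    ∃ a ∈ A, ⁅a, e⁆ * y⁻¹ ∈ E ⊓ A ⊓ cj g (E ⊓ A) := by
  obtain ⟨y', hy', x, hx, h1, rfl⟩ := h.exists_mul hg hX he hn
  obtain ⟨a, ha, e⟩ := (h.of_mx (h.mx hg hX) hx h1).2.2 y hy
  exact ⟨a, ha, by rwa [h.cm_mul ha hy' (h.cj_le hg hx)]⟩

theorem cover {g e : G} (hg : g ∈ 𝒩(E)) (hX : g ∉ XX S E) (he : e ∈ E) (hn : e ∉ E ⊓ A) :
    ∃ a ∈ A, e ∈ cj (a * g) (E ⊓ A) := by
  obtain ⟨y, hy, x, hx, h1, rfl⟩ := h.exists_mul hg hX he hn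
  obtain ⟨a, ha, e⟩ := h.surj hg hX (h.cj_le hg hx) h1 hy
  refine ⟨a, ha, ?_⟩
  have : y * x = a * ((⁅a, x⁆ * y⁻¹)⁻¹ * x) * a⁻¹ := by
    rw [← mul_assoc a, h.abA ha (inv_mem e.1.2), _root_.mul_inv_rev, inv_inv, commutatorElement_def]; group
  rw [this, cj_mul]
  exact conj_mem_cj a (mul_mem (inv_mem e.2) hx)

theorem tr {g k : G} (hg : g ∈ 𝒩(E)) (hX : g ∉ XX S E) (hk : k ∈ 𝒩(E)) (hkX : k ∉ XX S E) :
    ∃ a ∈ A, g⁻¹ * a * k ∈ XX S E := by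
  obtain ⟨a, ha, haE⟩ := SetLike.not_le_iff_exists.1 h.nle
  obtain ⟨x, hx, hn⟩ := SetLike.not_le_iff_exists.1 (h.not_cj_le hg hX)
  have hx := h.cj_le hg hx
  have key : ∀ m ∈ 𝒩(E), ⁅a, x⁆ ∈ cj m (E ⊓ A) → m ∈ XX S E := fun m hm e => by
    by_contra h1
    exact haE (h.nd hm h1 hx hn ha e)
  obtain ⟨b, hb, e⟩ := h.cover hk hkX (conj_mem hg (h.cm_mem ha hx).1) fun e =>
    hX (inv_mem_iff.1 (key _ (inv_mem hg) (mem_cj.2 (by rwa [inv_inv]))))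
  refine ⟨b, hb, key _ (mul_mem (mul_mem (inv_mem hg) (h.leT hb).2) hk) ?_⟩
  rw [mul_assoc, cj_mul]
  exact mem_cj.2 (by rwa [inv_inv])

theorem T_le : TT S E ≤ A ⊔ E := fun t ht => by
  obtain ⟨g, hg, hX⟩ := SetLike.not_le_iff_exists.1 h.not_le_X
  obtain ⟨a, ha, e⟩ := h.tr hg hX ((𝒩(E)).mul_mem ht.2 hg) fun e =>
    hX (((XX S E).mul_mem_cancel_left (T_le_X S E ht)).1 e)
  have : a * t ∈ E := by
    by_contra hn
    exact hX (inv_mem_iff.1 (h.se (mul_mem (h.leT ha) ht) hn (inv_mem hg) (by simpa [mul_assoc] using e)))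
  simpa using mul_mem_sup (inv_mem ha) this

theorem Z_eq' : ZZ S E = E ⊓ A :=
  le_antisymm (fun _ hx => h.mem_of_cent hx.1 (cent_mono h.leT hx.2)) fun x hx => ⟨hx.1, cent_mono h.T_le (by
    rw [cent_sup]; exact ⟨fun a ha => h.abA ha hx.2, h.ab hx.1⟩)⟩

theorem tb : TB S E := by
  have hT : TT S E = A ⊔ E := le_antisymm h.T_le (sup_le h.leT h.le_T)
  have hZ := h.Z_eq'
  have hA : A ≤ 𝒩(ZZ S E) := h.leT.trans ((T_le_X S E).trans h.X_le_normZ)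
  have hE : E ≤ 𝒩(ZZ S E) := h.le_T.trans ((T_le_X S E).trans h.X_le_normZ)
  have h1 : ⁅A, E⁆ ≤ ZZ S E := commutator_le.2 fun a ha e he => hZ.ge (h.cm_mem ha he)
  refine ⟨h.toEss, ?_, fun g hg hX t ht e he hc => ?_, fun g hg hX k hk hkX => ?_, fun g hg hX => ?_,
    fun g hg hX x hx hn y hy => ?_, ?_⟩
  · conv_lhs => rw [hT]
    exact commutator_sup_le' hA hE (commutator_sup_le hA hE (commutator_le.2 fun a ha b hb =>
      cm_eq_one (h.abA ha hb) ▸ one_mem _) h1) (commutator_sup_le hA hE (commutator_comm A E ▸ h1)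
        (commutator_le.2 fun a ha b hb => cm_eq_one (h.comm ha hb) ▸ one_mem _))
  · obtain ⟨a, ha, x, hx, rfl⟩ := (mem_sup_nr (h.leT.trans inf_le_right)).1 (h.T_le ht)
    rw [cm_left, cm_eq_one (h.comm hx he), mul_one, mul_inv_cancel, one_mul, hZ] at hc
    rw [hZ]
    exact or_iff_not_imp_left.2 fun hn => mul_mem (h.nd hg hX he hn ha hc) hx
  · exact (h.tr hg hX hk hkX).imp fun a ha => ⟨h.leT ha.1, ha.2⟩
  · exact hZ ▸ h.sup hg hX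
  · rw [hZ] at hn hy ⊢
    exact (h.surj hg hX hx hn hy).imp fun a ha => ⟨h.leT ha.1, ha.2.2⟩
  · obtain ⟨g, hg⟩ := h.exists_mx
    obtain ⟨x, hx, hn⟩ := SetLike.not_le_iff_exists.1 (h.not_cj_le hg.1 hg.2.1)
    rw [hZ, hT, inf_comm, card_sup_mul_card_inf (h.leT.trans inf_le_right), (h.of_mx hg hx hn).1]

end QA

/-- the dichotomy for essential subgroups -/
theorem Ess.dich [Finite G] (h : Ess S E) : TB S E ∨ thompsonSubgroupOf 0 S = E := by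
  by_cases hA : ∃ A ∈ meaIn 0 (TT S E), ¬ A ≤ E
  · obtain ⟨A, h1, h2, h3⟩ := exists_meaIn_quadratic_center h.ag.syl.isPGroup h.le_T inf_le_right hA
    rw [inf_eq_left.2 h.ab] at h3
    exact Or.inl (QA.tb ⟨h, h1, h2, commutator_eq_bot_iff_le_centralizer.1 h3⟩)
  push Not at hA
  obtain ⟨A, h1⟩ := exists_mem_meaIn 0 (TT S E)
  have h2 : thompsonSubgroupOf 0 (TT S E) = E := le_antisymm (thompsonSubgroupOf_le_iff.2 hA)
    ((eq_of_le_of_mem_meaIn h1 h.le_T (ea_zero_iff.2 (le_centralizer_iff_isMulCommutative.1 h.ab)) (hA A h1)).ge.trans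
      (le_thompsonSubgroupOf h1))
  refine Or.inr (((inf_le_left : TT S E ≤ S).eq_or_lt.resolve_right fun e => ?_) ▸ h2)
  exact (lt_inf_normalizer_of_isPGroup h.syl.isPGroup e).not_ge
    (inf_le_inf_left S ((normalizer_le_normalizer_thompsonSubgroupOf (p := 0) _).trans (by rw [h2])))

end CL.C2Low.AI
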