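/-
Groups with abelian Sylow 2-intersections (S3186), part 2: essential subgroups with a transvection (helper27).
-/
import Cfsg.Agent.C2Low.AbI1

set_option autoImplicit false
open Cfsg Subgroup CL.Even CL.Grp CL.Loc CL.Gold
open scoped commutatorElement

namespace CL.C2Low.AI

variable {G : Type*} [Group G] [Finite G] {S E : Subgroup G}

theorem Ess.exists_not_mem (h : Ess S E) : ∃ e ∈ E, e ∉ ZZ S E := by
  by_contra! hn
  exact h.lt_T.not_ge fun t ht => h.ag.cent ⟨ht.1, fun e he => ((hn e he).2 t ht).symm⟩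

namespace TB

variable (h : TB S E)
include h

omit [Finite G] in
theorem cm_mem {a x : G} (ha : a ∈ TT S E) (hx : x ∈ TT S E) : ⁅a, x⁆ ∈ ZZ S E :=
  h.cl2 (commutator_mem_commutator ha hx)

omit [Finite G] in
theorem mul_left {a b x : G} (ha : a ∈ TT S E) (hb : b ∈ TT S E) (hx : x ∈ TT S E) :
    ⁅a * b, x⁆ = ⁅a, x⁆ * ⁅b, x⁆ := by
  rw [cm_left, (h.cm_mem hb hx).2 a ha, mul_inv_cancel_right, (h.cm_mem hb hx).2 _ (h.le_T (h.cm_mem ha hx).1)]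

omit [Finite G] in
theorem mul_right {a x y : G} (ha : a ∈ TT S E) (hx : x ∈ TT S E) (hy : y ∈ TT S E) :
    ⁅a, x * y⁆ = ⁅a, x⁆ * ⁅a, y⁆ := by
  rw [cm_right, (h.cm_mem ha hy).2 x hx, mul_inv_cancel_right]

omit h [Finite G] in
theorem W_le_cj {g : G} (hg : g ∈ 𝒩(E)) : WW S E ≤ cj g (ZZ S E) :=
  (cj_eq (norm_le_norm_W S E hg)).ge.trans (cj_mono g (W_le_Z S E))

theorem inf_le_W {g : G} (hg : g ∈ 𝒩(E)) (hX : g ∉ XX S E) : ZZ S E ⊓ cj g (ZZ S E) ≤ WW S E := fun w hw => by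
  refine ⟨hw.1.1, le_cent_elt_iff.1 (ncl_le_iff.2 fun k hk => le_cent_elt_iff.2 ?_)⟩
  rw [← cj_cent]
  refine cj_mono k inf_le_right (show w ∈ cj k (ZZ S E) from ?_)
  by_cases hkX : k ∈ XX S E
  · rw [cj_eq (h.X_le_normZ hkX)]
    exact hw.1
  obtain ⟨a, ha, e⟩ := h.tr k hk hkX g hg hX
  rw [← cj_eq (h.X_le_normZ e), ← cj_mul, show k * (k⁻¹ * a * g) = a * g by group, cj_mul]
  exact mem_cj.2 (by rw [hw.1.2 _ (inv_mem ha), inv_mul_cancel_right]; exact hw.2)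

theorem nd {t e : G} (ht : t ∈ TT S E) (he : e ∈ E) (hc : ⁅t, e⁆ ∈ WW S E) : e ∈ ZZ S E ∨ t ∈ E :=
  let ⟨g, hg, hX⟩ := SetLike.not_le_iff_exists.1 h.not_le_X
  h.nd' g hg hX t ht e he (W_le_cj hg hc)

theorem mem_of_comm {t e : G} (ht : t ∈ TT S E) (he : e ∈ E) (hn : e ∉ ZZ S E) (hc : t * e = e * t) : t ∈ E :=
  (h.nd ht he (cm_eq_one hc ▸ one_mem _)).resolve_left hn

theorem sqT {a : G} (ha : a ∈ TT S E) : a * a ∈ E := by
  obtain ⟨x, hx, hn, h2⟩ : ∃ x ∈ E, x ∉ ZZ S E ∧ x * x ∈ ZZ S E := by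
    by_contra! hc
    obtain ⟨e, he, hn⟩ := h.exists_not_mem
    obtain ⟨k, hk⟩ := isPGroup_iff_forall.1 h.syl.isPGroup e (h.le he)
    have : ∀ k : ℕ, e ^ 2 ^ k ∉ ZZ S E := fun k => by
      induction k with
      | zero => simpa using hn
      | succ k ih => rw [pow_succ, pow_mul, sq]; exact hc _ (pow_mem he _) ih
    exact this k (hk ▸ one_mem _)
  refine (h.nd (mul_mem ha ha) hx ?_).resolve_left hn
  rw [h.mul_left ha ha (h.le_T hx), ← h.mul_right ha (h.le_T hx) (h.le_T hx), cm_eq_one (h2.2 a ha)]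
  exact one_mem _

theorem cm_sq {a e : G} (ha : a ∈ TT S E) (he : e ∈ E) : ⁅a, e⁆ * ⁅a, e⁆ = 1 := by
  rw [← h.mul_left ha ha (h.le_T he), cm_eq_one (h.comm (h.sqT ha) he)]

theorem sq {e : G} (he : e ∈ E) : e * e ∈ WW S E := by
  have key : ∀ e ∈ E, e * e ∈ ZZ S E := fun e he => ⟨mul_mem he he, fun a ha =>
    commutatorElement_eq_one_iff_mul_comm.1 (by rw [h.mul_right ha (h.le_T he) (h.le_T he), h.cm_sq ha he])⟩
  obtain ⟨g, hg, hX⟩ := SetLike.not_le_iff_exists.1 h.not_le_X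
  exact h.inf_le_W hg hX ⟨key e he, mem_cj.2 (by simpa [mul_assoc] using key _ (conj_mem' hg he))⟩

theorem inv {e : G} (he : e ∈ E) : ∃ v ∈ E, v * v = 1 ∧ ∃ c ∈ ZZ S E, v * c = e := by
  obtain ⟨g, hg, hX⟩ := SetLike.not_le_iff_exists.1 h.not_le_X
  have h0 : cj g (ZZ S E) ≤ E := cj_le_of_le inf_le_left hg
  obtain ⟨_, ⟨x, hx, rfl⟩, y, hy, rfl⟩ := (mem_sup_nr ((h0.trans (h.ab.trans (cent_mono inf_le_left))).trans
    (cent_le_norm _))).1 (sup_comm (ZZ S E) _ ▸ h.sup g hg hX he)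
  replace hx : x ∈ ZZ S E := hx
  obtain ⟨x₀, hx₀, hn⟩ := h.exists_not_mem
  obtain ⟨a, ha, e⟩ := h.surj g hg hX x₀ hx₀ hn x hx
  have h1 := h.cm_mem ha (h.le_T hx₀)
  have h2 := conj_mem (norm_le_norm_W S E hg) (h.inf_le_W hg hX ⟨(ZZ S E).mul_mem h1 (inv_mem hx), e⟩)
  refine ⟨g * ⁅a, x₀⁆ * g⁻¹, conj_mem hg h1.1, by rw [conj_mul, h.cm_sq ha hx₀]; simp, _,
    mul_mem (inv_mem (W_le_Z S E h2)) hy, ?_⟩
  have h3 := h.comm h1.1 hx.1
  calc _ = g * (⁅a, x₀⁆ * x) * ⁅a, x₀⁆⁻¹ * g⁻¹ * y := by group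
    _ = g * x * g⁻¹ * y := by rw [h3]; group

theorem cent {e : G} (he : e ∈ E) (hn : e ∉ ZZ S E) : S ⊓ centralizer {e} = E := by
  have h1 : E ≤ S ⊓ centralizer {e} := le_inf h.le fun x hx => mem_centralizer_singleton_iff.2 (h.comm hx he)
  refine (h1.eq_or_lt.resolve_right fun e' => ?_).symm
  exact (lt_inf_normalizer_of_isPGroup (h.syl.isPGroup.to_le inf_le_left) e').not_ge fun t ht =>
    h.mem_of_comm ⟨ht.1.1, ht.2⟩ he hn (mem_centralizer_singleton_iff.1 ht.1.2)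

end TB

/-- an essential subgroup on which `N_S(E)` acts as the transvection group with commutator `z` -/
structure Bz (S E : Subgroup G) (z : G) : Prop extends Ess S E where
  neJ : thompsonSubgroupOf 0 S ≠ E
  two : ∀ e ∈ E, ∀ e' ∈ E, e ∉ ZZ S E → e' ∉ ZZ S E → e * e' ∈ ZZ S E
  ne : z ≠ 1
  ex : ∃ t ∈ TT S E, ∃ e ∈ E, ⁅t, e⁆ = z

omit [Finite G] in
theorem cj_TT {n : G} (hn : n ∈ 𝒩(S)) : cj n (TT S E) = TT S (cj n E) := by rw [cj_inf, cj_norm, cj_eq hn]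

omit [Finite G] in
theorem cj_ZZ {n : G} (hn : n ∈ 𝒩(S)) : cj n (ZZ S E) = ZZ S (cj n E) := by rw [cj_inf, cj_cent, cj_TT hn]

theorem Ess.exists_bz (h : Ess S E) (hJ : thompsonSubgroupOf 0 S ≠ E)
    (h2 : ∀ v ∈ E, ∀ w ∈ E, v * v = 1 → w * w = 1 → v ∉ ZZ S E → w ∉ ZZ S E → v * w ∈ ZZ S E) : ∃ z, Bz S E z := by
  have hb := h.dich.resolve_right hJ
  obtain ⟨e, he, hn⟩ := h.exists_not_mem
  obtain ⟨t, ht, hE⟩ := SetLike.not_le_iff_exists.1 h.lt_T.not_ge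
  refine ⟨_, h, hJ, fun x hx y hy h3 h4 => ?_, fun e' => hE (hb.mem_of_comm ht he hn
    (commutatorElement_eq_one_iff_mul_comm.1 e')), t, ht, e, he, rfl⟩
  obtain ⟨v, hv, v2, c, hc, rfl⟩ := hb.inv hx
  obtain ⟨w, hw, w2, d, hd, rfl⟩ := hb.inv hy
  rw [mul_assoc, ← mul_assoc c, h.comm hc.1 hw, mul_assoc, ← mul_assoc]
  exact mul_mem (h2 v hv w hw v2 w2 (fun e => h3 (mul_mem e hc)) fun e => h4 (mul_mem e hd)) (mul_mem hc hd)

namespace Bz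

variable {z : G} (h : Bz S E z)
include h

omit [Finite G] in
theorem conj {n : G} (hn : n ∈ 𝒩(S)) : Bz S (cj n E) (n * z * n⁻¹) := by
  refine ⟨h.toEss.conj hn, fun e => h.neJ (cj_inj.1 ((cj_eq (normalizer_le_normalizer_thompsonSubgroupOf _ hn)).trans
    e)), ?_, by simpa using h.ne, ?_⟩
  · rintro _ ⟨x, hx, rfl⟩ _ ⟨y, hy, rfl⟩ h1 h2
    rw [← cj_ZZ hn] at h1 h2 ⊢
    rw [← map_mul]
    exact conj_mem_cj n (h.two x hx y hy (fun e => h1 (conj_mem_cj n e)) fun e => h2 (conj_mem_cj n e))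
  · obtain ⟨t, ht, e, he, rfl⟩ := h.ex
    exact ⟨_, cj_TT hn ▸ conj_mem_cj n ht, _, conj_mem_cj n he, (cm_conj n t e).symm⟩

theorem tb : TB S E := h.dich.resolve_right h.neJ

theorem memZ : z ∈ ZZ S E := by
  obtain ⟨t, ht, e, he, rfl⟩ := h.ex
  exact h.tb.cm_mem ht (h.le_T he)

theorem sq : z * z = 1 := by
  obtain ⟨t, ht, e, he, rfl⟩ := h.ex
  exact h.tb.cm_sq ht he

theorem ex' : ∃ t ∈ TT S E, ∃ e ∈ E, t ∉ E ∧ e ∉ ZZ S E ∧ ⁅t, e⁆ = z :=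
  let ⟨t, ht, e, he, e1⟩ := h.ex
  ⟨t, ht, e, he, fun e2 => h.ne (e1 ▸ cm_eq_one (h.comm e2 he)), fun e2 => h.ne (e1 ▸ cm_eq_one (e2.2 t ht)), e1⟩

theorem notW : z ∉ WW S E := fun e =>
  let ⟨_, ht, _, he, h1, h2, e1⟩ := h.ex'
  (h.tb.nd ht he (e1 ▸ e)).elim h2 h1

theorem nsq {e : G} (he : e ∈ E) : e * e ≠ z := fun e' => h.notW (e' ▸ h.tb.sq he)

theorem mul_mem_W {c d : G} (hc : c ∈ ZZ S E) (hd : d ∈ ZZ S E) (h1 : c ∉ WW S E) (h2 : d ∉ WW S E) :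
    c * d ∈ WW S E := by
  obtain ⟨g, hg, hX⟩ := SetLike.not_le_iff_exists.1 h.not_le_X
  refine h.tb.inf_le_W hg hX ⟨mul_mem hc hd, mem_cj.2 ?_⟩
  simpa [mul_assoc] using h.two _ (conj_mem' hg hc.1) _ (conj_mem' hg hd.1)
    (fun e => h1 (h.tb.inf_le_W hg hX ⟨hc, mem_cj.2 e⟩)) fun e => h2 (h.tb.inf_le_W hg hX ⟨hd, mem_cj.2 e⟩)

theorem cm_eq {t e : G} (ht : t ∈ TT S E) (he : e ∈ E) (h1 : t ∉ E) (h2 : e ∉ ZZ S E) : ⁅t, e⁆ = z := by
  obtain ⟨t₀, ht₀, e₀, he₀, h3, h4, rfl⟩ := h.ex'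
  have b := h.tb
  have h5 : t * t₀ ∈ E := (b.nd (mul_mem ht ht₀) he (by
    rw [b.mul_left ht ht₀ (h.le_T he)]
    exact h.mul_mem_W (b.cm_mem ht (h.le_T he)) (b.cm_mem ht₀ (h.le_T he)) (fun e => (b.nd ht he e).elim h2 h1)
      fun e => (b.nd ht₀ he e).elim h2 h3)).resolve_left h2
  have h6 := b.mul_left ht ht₀ (h.le_T he)
  have h7 := b.mul_right ht₀ (h.le_T he) (h.le_T he₀)
  rw [cm_eq_one (h.comm h5 he)] at h6
  rw [cm_eq_one ((h.two e he e₀ he₀ h2 h4).2 t₀ ht₀)] at h7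
  rw [eq_inv_of_mul_eq_one_left h6.symm, eq_inv_of_mul_eq_one_right h7.symm]

theorem cm {t e : G} (ht : t ∈ TT S E) (he : e ∈ E) : ⁅t, e⁆ = 1 ∨ ⁅t, e⁆ = z := by
  by_cases h1 : t ∈ E
  · exact Or.inl (cm_eq_one (h.comm h1 he))
  by_cases h2 : e ∈ ZZ S E
  · exact Or.inl (cm_eq_one (h2.2 t ht))
  · exact Or.inr (h.cm_eq ht he h1 h2)

theorem uniq {z' : G} (h' : Bz S E z') : z' = z :=
  let ⟨_, ht, _, he, e⟩ := h'.ex
  e ▸ (h.cm ht he).resolve_left (e ▸ h'.ne)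

theorem fixX {k : G} (hk : k ∈ XX S E) : k * z * k⁻¹ = z := by
  obtain ⟨t, ht, e, he, e1⟩ := h.ex
  obtain ⟨t', ht', c, hc, e2⟩ := (mem_sup_nr (inf_le_right.trans (norm_le_norm_cent E))).1
    (conj_mem hk.2 (mem_sup_left ht))
  have h1 : k * z * k⁻¹ = ⁅t', k * e * k⁻¹⁆ := by
    rw [← e1, cm_conj, ← e2, cm_left, cm_eq_one (hc _ (conj_mem hk.1 he)).symm]; group
  rw [h1]
  exact (h.cm ht' (conj_mem hk.1 he)).resolve_left fun e' => h.ne (by simpa using h1.trans e')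

theorem notZ {g : G} (hg : g ∈ 𝒩(E)) (hn : g * z * g⁻¹ ≠ z) : g * z * g⁻¹ ∉ ZZ S E := fun e => by
  obtain ⟨t, ht, x, hx, h1, h2, e1⟩ := h.ex'
  exact (h.tb.nd' g⁻¹ (inv_mem hg) (fun e' => hn (h.fixX (inv_mem_iff.1 e'))) t ht x hx
    (e1 ▸ mem_cj.2 (by rwa [inv_inv]))).elim h2 h1

theorem cls {g k : G} (hg : g ∈ 𝒩(E)) (hk : k ∈ 𝒩(E)) (h1 : g * z * g⁻¹ ≠ z) (h2 : k * z * k⁻¹ ≠ z) :
    k * z * k⁻¹ = g * z * g⁻¹ ∨ k * z * k⁻¹ = g * z * g⁻¹ * z := by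
  obtain ⟨a, ha, e⟩ := h.tb.tr k hk (fun e => h2 (h.fixX e)) g hg fun e => h1 (h.fixX e)
  have h3 : k * z * k⁻¹ = ⁅a, g * z * g⁻¹⁆ * (g * z * g⁻¹) := by
    conv_lhs => rw [← h.fixX e]
    simp only [commutatorElement_def]; group
  have h4 := conj_mem hg h.memZ.1
  rcases h.cm ha h4 with e' | e'
  · exact Or.inl (by rw [h3, e', one_mul])
  · exact Or.inr (by rw [h3, e', h.comm h.memZ.1 h4])

theorem exists_ne : ∃ g ∈ 𝒩(E), g * z * g⁻¹ ≠ z := by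
  obtain ⟨g, hg, hX⟩ := SetLike.not_le_iff_exists.1 h.not_le_X
  exact ⟨g, hg, fun e => h.notW (h.tb.inf_le_W hg hX ⟨h.memZ, e ▸ conj_mem_cj g h.memZ⟩)⟩

theorem comm_le {K : Subgroup G} (hK : ∀ g ∈ 𝒩(E), g * z * g⁻¹ ∈ K) : ⁅E, LL S E⁆ ≤ K := by
  have hF : 𝒩(E) ≤ 𝒩(ncl 𝒩(E) (zpowers z)) := le_norm_ncl _ _
  refine (commutator_le_of_le_cmod (ncl_le_iff.2 fun g hg => le_cmod ((cj_le_of_mem inf_le_right hg).trans hF)
    ?_)).trans (ncl_le_iff.2 fun g hg => ?_)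
  · refine (commutator_mono (cj_eq hg).ge le_rfl).trans ((cj_commutator g _ _).ge.trans
      ((cj_mono g ?_).trans (cj_le_ncl _ hg)))
    rw [commutator_comm]
    exact commutator_le.2 fun t ht e he => (h.cm ht he).elim (fun e => e ▸ one_mem _) fun e => e ▸ mem_zpowers z
  · rw [MonoidHom.map_zpowers, zpowers_le]
    exact hK g hg

end Bz

/-- `v` is one of the two non-central conjugates of `z` -/
def Vv (S : Subgroup G) (v z : G) : Prop := ∃ E, Bz S E z ∧ v ≠ z ∧ ∃ g ∈ 𝒩(E), g * z * g⁻¹ = v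

namespace Vv

variable {v z : G} (h : Vv S v z)
include h

omit [Finite G] in
theorem conj {n : G} (hn : n ∈ 𝒩(S)) : Vv S (n * v * n⁻¹) (n * z * n⁻¹) := by
  obtain ⟨E, hE, h1, g, hg, rfl⟩ := h
  exact ⟨_, hE.conj hn, by simpa using h1, n * g * n⁻¹, cj_norm n E ▸ conj_mem_cj n hg, by group⟩

theorem bz : Bz S (S ⊓ centralizer {v}) z ∧ v ∉ ZZ S (S ⊓ centralizer {v}) := by
  obtain ⟨E, hE, h1, g, hg, rfl⟩ := h
  rw [hE.tb.cent (conj_mem hg hE.memZ.1) (hE.notZ hg h1)]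
  exact ⟨hE, hE.notZ hg h1⟩

theorem mem : v ∈ S := by
  obtain ⟨E, hE, -, g, hg, rfl⟩ := h
  exact hE.le (conj_mem hg hE.memZ.1)

theorem sq : v * v = 1 := by
  obtain ⟨E, hE, -, g, hg, rfl⟩ := h
  rw [conj_mul, hE.sq, mul_one, mul_inv_cancel]

theorem inv : v⁻¹ = v := inv_eq_of_mul_eq_one_right h.sq

theorem mem' : v ∈ S ⊓ centralizer {v} := ⟨h.mem, mem_centralizer_singleton_iff.2 rfl⟩

theorem z_comm : z * v = v * z := mem_centralizer_singleton_iff.1 h.bz.1.memZ.1.2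

theorem mulz : Vv S (v * z) z := by
  obtain ⟨E, hE, h1, g, hg, rfl⟩ := h
  obtain ⟨t, ht, -, -, h2, -⟩ := hE.ex'
  have h3 := conj_mem hg hE.memZ.1
  refine ⟨E, hE, fun e => hE.ne (by simpa using e), t * g, mul_mem ht.2 hg, ?_⟩
  rw [hE.comm h3 hE.memZ.1]
  nth_rewrite 2 [← hE.cm_eq ht h3 h2 (hE.notZ hg h1)]
  simp only [commutatorElement_def]; group

theorem of_comm {v' z' : G} (h' : Vv S v' z') (e : v' * v = v * v') : z' = z ∧ (v' = v ∨ v' = v * z) := by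
  have h1 : v' ∈ S ⊓ centralizer {v} := ⟨h'.mem, mem_centralizer_singleton_iff.2 e⟩
  have h2 : S ⊓ centralizer {v'} = S ⊓ centralizer {v} := h.bz.1.tb.cent h1 fun e' => by
    obtain ⟨t, ht, x, hx, e1⟩ := h.bz.1.ex
    have hx := h.bz.1.le_T hx
    exact h.bz.1.ne (e1 ▸ cm_eq_one (h'.bz.1.comm ⟨ht.1, mem_centralizer_singleton_iff.2 (e'.2 t ht)⟩
      ⟨hx.1, mem_centralizer_singleton_iff.2 (e'.2 x hx)⟩))
  obtain ⟨E, hE, h3, g, hg, rfl⟩ := h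
  obtain ⟨E', hE', h3', g', hg', rfl⟩ := h'
  rw [hE.tb.cent (conj_mem hg hE.memZ.1) (hE.notZ hg h3), hE'.tb.cent (conj_mem hg' hE'.memZ.1) (hE'.notZ hg' h3')] at h2
  subst h2
  obtain rfl := hE.uniq hE'
  exact ⟨rfl, hE.cls hg hg' h3 h3'⟩

theorem conj_inv {g : G} (hi : v * g * v⁻¹ = g⁻¹) (n : ℕ) : (g ^ n)⁻¹ * v * (g ^ n)⁻¹⁻¹ = v * (g ^ n * g ^ n) := by
  rw [inv_inv, ← inv_pow, ← hi, conj_pow]
  group

theorem top {g : G} (hg : g ∈ S) (hi : v * g * v⁻¹ = g⁻¹) {k : ℕ} (ho : orderOf g = 2 ^ (k + 2)) :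
    g ^ 2 ^ (k + 1) = z := by
  have h1 := h.conj (le_normalizer (inv_mem (pow_mem hg (2 ^ k))))
  rw [h.conj_inv hi, ← pow_add, ← two_mul, ← pow_succ'] at h1
  have h2 : g ^ 2 ^ (k + 1) * g ^ 2 ^ (k + 1) = 1 := by rw [← pow_add, ← two_mul, ← pow_succ', ← ho, pow_orderOf_eq_one]
  have h3 : v * g ^ 2 ^ (k + 1) * v⁻¹ = g ^ 2 ^ (k + 1) := by
    rw [← conj_pow, hi, inv_pow, inv_eq_of_mul_eq_one_right h2]
  rcases (h.of_comm h1 (by rw [mul_assoc, mul_inv_eq_iff_eq_mul.1 h3])).2 with e | e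
  · have := orderOf_dvd_of_pow_eq_one (mul_eq_left.1 e)
    rw [ho, Nat.pow_dvd_pow_iff_le_right one_lt_two] at this
    omega
  · exact mul_left_cancel e

theorem tri {v' z' : G} (h' : Vv S v' z') :
    z' = z ∧ (v * v' = 1 ∨ v * v' = z ∨ ∃ k, (v * v') ^ 2 ^ k * (v * v') ^ 2 ^ k = z) := by
  have hg := mul_mem h.mem h'.mem
  obtain ⟨m, hm⟩ := isPGroup_iff_forall.1 h.bz.1.syl.isPGroup _ hg
  obtain ⟨n, -, hn⟩ := (Nat.dvd_prime_pow Nat.prime_two).1 (orderOf_dvd_of_pow_eq_one hm)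
  by_cases h2 : n ≤ 1
  · have h3 : (v * v') ^ 2 = 1 := orderOf_dvd_iff_pow_eq_one.1 (hn ▸ pow_dvd_pow 2 h2)
    obtain ⟨e1, e2⟩ := h.of_comm h' (by
      rw [← h.inv, ← h'.inv, ← _root_.mul_inv_rev, h.inv, h'.inv]
      exact inv_eq_of_mul_eq_one_right (by rwa [← _root_.sq]))
    exact ⟨e1, e2.imp (fun e => by rw [e, h.sq]) fun e => Or.inl (by rw [e, ← mul_assoc, h.sq, one_mul])⟩
  obtain ⟨k, rfl⟩ : ∃ k, n = k + 2 := ⟨n - 2, by omega⟩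
  have e1 := h.top hg (by rw [← mul_assoc, h.sq, one_mul, _root_.mul_inv_rev, h'.inv]) hn
  have e2 := h'.top hg (by rw [mul_assoc, mul_inv_cancel_right, _root_.mul_inv_rev, h.inv, h'.inv]) hn
  exact ⟨e2.symm.trans e1, Or.inr (Or.inr ⟨k, by rw [← pow_add, ← two_mul, ← pow_succ', e1]⟩)⟩

theorem of_cent {x y : G} (hx : Vv S x z) (hy : Vv S y z) (e : x * y * v = v * (x * y)) : x * y = 1 ∨ x * y = z :=
  (hx.tri hy).2.imp_right fun e' => e'.resolve_right fun ⟨_, hk⟩ =>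
    h.bz.1.nsq ((S ⊓ centralizer {v}).pow_mem ⟨mul_mem hx.mem hy.mem, mem_centralizer_singleton_iff.2 e⟩ _) hk

theorem conj' {s : G} (hs : s ∈ 𝒩(S)) : Vv S (s * v * s⁻¹) z := (h.tri (h.conj hs)).1 ▸ h.conj hs

theorem inv_of {y : G} (hy : Vv S (v * y) z) : v * y * v⁻¹ = y⁻¹ := by
  rw [h.inv, eq_inv_iff_mul_eq_one, mul_assoc, hy.sq]

theorem mem_of {y : G} (hy : Vv S (v * y) z) : y ∈ S := (S.mul_mem_cancel_left h.mem).1 hy.mem

theorem pow {y : G} (hy : Vv S (v * y) z) (n : ℕ) : Vv S (v * y ^ n) z := by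
  have h1 := le_normalizer (inv_mem (pow_mem (h.mem_of hy) (n / 2)))
  rcases Nat.mod_two_eq_zero_or_one n with e | e
  · have := h.conj' h1
    rwa [h.conj_inv (h.inv_of hy), ← pow_add, show n / 2 + n / 2 = n by omega] at this
  · have := hy.conj' h1
    rwa [hy.conj_inv (by rw [← h.inv_of hy]; group), mul_assoc, ← pow_add, ← pow_succ',
      show n / 2 + n / 2 + 1 = n by omega] at this

theorem zpow {x y : G} (hx : Vv S (v * x) z) (hy : y ∈ zpowers x) : Vv S (v * y) z := by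
  obtain ⟨n, rfl⟩ := (mem_powers_iff_mem_zpowers).2 hy
  exact h.pow hx n

/-- the involutions `Vv S · z` generate a dihedral group -/
theorem exists_gen : ∃ x, Vv S (v * x) z ∧ z ∈ zpowers x ∧ ∀ y, Vv S (v * y) z → y ∈ zpowers x := by
  obtain ⟨x, hx, hm⟩ := Set.exists_max_image {y | Vv S (v * y) z} orderOf (Set.toFinite _) ⟨z, h.mulz⟩
  have hz : z ∈ zpowers x := by
    have := (h.tri hx).2
    rw [← mul_assoc, h.sq, one_mul] at this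
    rcases this with e | e | ⟨k, e⟩
    · have := hm z h.mulz
      rw [e, orderOf_one] at this
      exact (h.bz.1.ne (orderOf_eq_one_iff.1 (le_antisymm this (orderOf_pos z)))).elim
    · exact e ▸ mem_zpowers x
    · exact e ▸ mul_mem (pow_mem (mem_zpowers x) _) (pow_mem (mem_zpowers x) _)
  refine ⟨x, hx, hz, fun y => ?_⟩
  induction hn : orderOf y using Nat.strong_induction_on generalizing y with
  | _ n ih =>
  intro hy
  by_cases h1 : y = 1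
  · exact h1 ▸ one_mem _
  have hP := h.bz.1.syl.isPGroup
  have h2 : ∀ u ∈ S, u ≠ 1 → 2 ∣ orderOf u := fun u hu h1 => by
    obtain ⟨m, hm⟩ := isPGroup_iff_forall.1 hP _ hu
    obtain ⟨n, -, hn⟩ := (Nat.dvd_prime_pow Nat.prime_two).1 (orderOf_dvd_of_pow_eq_one hm)
    exact hn ▸ dvd_pow_self 2 fun e => h1 (orderOf_eq_one_iff.1 (by rw [hn, e, pow_zero]))
  have h3 : orderOf (y ^ 2) < orderOf y := by
    rw [orderOf_pow_of_dvd two_ne_zero (h2 y (h.mem_of hy) h1)]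
    exact Nat.div_lt_self (orderOf_pos y) one_lt_two
  obtain ⟨j, hj⟩ := (mem_powers_iff_mem_zpowers).2 (ih _ (hn ▸ h3) _ rfl (h.pow hy 2))
  obtain ⟨i, rfl⟩ : Even j := by
    by_contra hj'
    obtain ⟨m, hm'⟩ := isPGroup_iff_forall.1 hP _ (h.mem_of hx)
    have := (Nat.Coprime.coprime_dvd_left (orderOf_dvd_of_pow_eq_one hm') (Nat.Coprime.pow_left m
      (Nat.coprime_two_left.2 (Nat.not_even_iff_odd.1 hj')))).orderOf_pow
    have := hm y hy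
    simp only at hj
    rw [← hj] at h3
    omega
  have h4 := h.conj_inv (h.inv_of hx) i
  have h5 := h.conj_inv (h.inv_of hy) 1
  simp only [pow_add, _root_.sq] at hj
  rw [hj] at h4
  rw [pow_one, ← h4, inv_inv, inv_inv] at h5
  have h6 := h.zpow hx (inv_mem (pow_mem (mem_zpowers x) i))
  have h7 := h.zpow hy (inv_mem (mem_zpowers y))
  have h8 : v * y⁻¹ * (v * (x ^ i)⁻¹) = y * (x ^ i)⁻¹ := by
    have := h.inv_of h7
    rw [h.inv, inv_inv] at this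
    rw [← mul_assoc, this]
  have h9 := h.of_cent h7 h6 (by
    rw [h8]
    calc _ = y * ((x ^ i)⁻¹ * v * x ^ i) * (x ^ i)⁻¹ := by group
      _ = _ := by rw [← h5]; group)
  rw [h8] at h9
  refine ((zpowers x).mul_mem_cancel_right (inv_mem (pow_mem (mem_zpowers x) i))).1 ?_
  exact h9.elim (fun e => e ▸ one_mem _) fun e => e ▸ hz

end Vv

end CL.C2Low.AI
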