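/-
Embeddings into `PGL₃(4)`: the field of order four, affine groups, and extensions of `PSL₃(4)` of odd degree.
-/
import Cfsg.Agent.Cls.PSL34
import Cfsg.Agent.Known.GLAut4
import Cfsg.Agent.Grp.Gaschutz
import Cfsg.Agent.Even.NatSL2

set_option autoImplicit false
open Cfsg Subgroup CL.Even CL.Grp Matrix

namespace CL.C2Low.L34

section Field

variable {F : Type*} [Field F] [Fintype F] (hF : Fintype.card F = 4)
include hF

theorem pow_four (t : F) : t ^ 4 = t := by rw [← hF]; exact FiniteField.pow_card t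

theorem add_form {σ : F → F} (add : ∀ s t, σ (s + t) = σ s + σ t) : ∃ a b, ∀ t, σ t = a * t + b * t ^ 2 := by
  obtain ⟨h2, w, hw, h⟩ := CL.Cls.exists_omega_of_card_four hF
  have h0 : σ 0 = 0 := by simpa using add 0 0
  refine ⟨σ 1 + σ w + σ 1 * w, σ w + σ 1 * w, fun t => ?_⟩
  rcases h t with rfl | rfl | rfl | rfl
  · simp [h0]
  · linear_combination (-σ w - σ 1 * w) * h2
  · linear_combination (-(2 * σ 1 + σ t + σ 1 * t)) * hw - (2 * σ 1 * t + σ t * t + σ 1) * h2
  · rw [add]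
    linear_combination (-σ w - 3 * σ 1 - σ 1 * w - σ 1) * hw - (2 * σ w * w + 4 * σ 1 * w + σ w + 2 * σ 1) * h2

theorem sq_scalar {σ : F → F} (add : ∀ s t, σ (s + t) = σ s + σ t) (inj : ∀ t, σ t = 0 → t = 0) :
    ∃ c, ∀ t, σ (σ t) = c * t := by
  obtain ⟨a, b, h⟩ := add_form hF add
  have h2 := (CL.Cls.exists_omega_of_card_four hF).1
  by_cases hb : b = 0
  · exact ⟨a * a, fun t => by rw [h, h, hb]; ring⟩
  have ha : a = 0 := by
    have := inj (a / b) (by rw [h]; field_simp; linear_combination (a ^ 2) * h2)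
    simpa [hb] using this
  exact ⟨b ^ 3, fun t => by rw [h, h, ha]; linear_combination b ^ 3 * pow_four hF t⟩

theorem scalar_of {σ : F → F} (add : ∀ s t, σ (s + t) = σ s + σ t) (h0 : ∀ t ≠ 0, σ t = 0 → ∀ u, σ u = 0)
    (h1 : ∀ t ≠ 0, σ t = t → ∀ u, σ u = u) : ∃ c, ∀ t, σ t = c * t := by
  obtain ⟨a, b, h⟩ := add_form hF add
  have h2 := (CL.Cls.exists_omega_of_card_four hF).1
  by_cases hb : b = 0
  · exact ⟨a, fun t => by rw [h, hb]; ring⟩
  by_cases ha : a = 0
  · exact ⟨1, fun t => by rw [h1 b⁻¹ (inv_ne_zero hb) (by rw [h, ha]; field_simp; ring), one_mul]⟩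
  · exact ⟨0, fun t => by
      rw [h0 (a / b) (div_ne_zero ha hb) (by rw [h]; field_simp; linear_combination (a ^ 2) * h2), zero_mul]⟩

theorem ringEquiv_sq (σ : F ≃+* F) : σ * σ = 1 := by
  obtain ⟨c, hc⟩ := sq_scalar hF σ.map_add fun t => σ.map_eq_zero_iff.1
  have h1 : c = 1 := by simpa using (hc 1).symm
  exact RingEquiv.ext fun t => by simpa [h1] using hc t

variable {G : Type*} [Group G]

theorem sq_act {x : F → G} (add : ∀ s t, x (s + t) = x s * x t) (inj : Function.Injective x) {k : G}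
    (hk : ∀ t, ∃ u, k * x t * k⁻¹ = x u) : ∃ c, ∀ t, k * k * x t * (k * k)⁻¹ = x (c * t) := by
  choose σ hσ using hk
  have h0 : x 0 = 1 := by simpa using add 0 0
  obtain ⟨c, hc⟩ := sq_scalar hF (σ := σ) (fun s t => inj (by rw [add, ← hσ, ← hσ, ← hσ, add, conj_mul]))
    fun t e => inj (by simpa [e, h0] using hσ t)
  exact ⟨c, fun t => by rw [← hc, ← hσ, ← hσ]; group⟩

end Field

variable {F : Type*} [Field F] {G : Type*} [Group G]

/-- `G` embeds in `PGL₃(F)`. -/
def Emb (F : Type*) [Field F] (G : Type*) [Group G] : Prop :=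
  ∃ f : G →* GL (Fin 3) F ⧸ center (GL (Fin 3) F), Function.Injective f

/-- coordinates on `A` -/
structure Par (A : Subgroup G) (ι : (Fin 2 → F) → G) : Prop where
  add : ∀ v w, ι (v + w) = ι v * ι w
  inj : Function.Injective ι
  mem : ∀ v, ι v ∈ A
  surj : ∀ a ∈ A, ∃ v, ι v = a

/-- `g` acts linearly -/
def Lin (ι : (Fin 2 → F) → G) (g : G) : Prop := ∃ M : Matrix (Fin 2) (Fin 2) F, ∀ v, g * ι v * g⁻¹ = ι (M *ᵥ v)

variable {A : Subgroup G} {ι : (Fin 2 → F) → G}

theorem Lin.mul {g h : G} (hg : Lin ι g) (hh : Lin ι h) : Lin ι (g * h) := by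
  obtain ⟨M, hM⟩ := hg
  obtain ⟨N, hN⟩ := hh
  exact ⟨M * N, fun v => by rw [← mulVec_mulVec, ← hM, ← hN]; group⟩

theorem Par.zero (h : Par A ι) : ι 0 = 1 := by simpa using h.add 0 0

theorem Par.comm (h : Par A ι) {a b : G} (ha : a ∈ A) (hb : b ∈ A) : a * b = b * a := by
  obtain ⟨v, rfl⟩ := h.surj a ha
  obtain ⟨w, rfl⟩ := h.surj b hb
  rw [← h.add, ← h.add, add_comm]

theorem Par.map {E : Type*} [Field E] (h : Par A ι) (e : E ≃+* F) : Par A fun v : Fin 2 → E => ι (e ∘ v) where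
  add v w := by rw [← h.add]; congr 1; ext i; simp
  inj v w h1 := by ext i; exact e.injective (congrFun (h.inj h1) i)
  mem v := h.mem _
  surj a ha := by
    obtain ⟨v, rfl⟩ := h.surj a ha
    exact ⟨e.symm ∘ v, by congr 1; ext i; simp⟩

theorem Lin.map {E : Type*} [Field E] {g : G} (h : Lin ι g) (e : E ≃+* F) : Lin (fun v : Fin 2 → E => ι (e ∘ v)) g := by
  obtain ⟨M, hM⟩ := h
  refine ⟨M.map e.symm, fun v => ?_⟩
  rw [hM]
  congr 1
  ext i
  fin_cases i <;> simp [mulVec, dotProduct]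

theorem Par.emb [A.Normal] (h : Par A ι) (hC : centralizer (A : Set G) ≤ A) {D : Subgroup G} (hD : IsComplement' A D)
    (hl : ∀ g, Lin ι g) : Emb F G := by
  choose M hM using hl
  have : IsMulCommutative A := ⟨⟨fun a b => Subtype.ext (h.comm a.2 b.2)⟩⟩
  obtain ⟨φ, -, h2, h3⟩ := exists_crossedHom_of_compl A D hD.symm.disjoint.eq_bot
  choose δ hδ using fun g => h.surj _ (φ g).2
  have ext : ∀ N N' : Matrix (Fin 2) (Fin 2) F, (∀ v, ι (N *ᵥ v) = ι (N' *ᵥ v)) → N = N' := fun N N' e =>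
    Matrix.toLin'.injective (LinearMap.ext fun v => h.inj (e v))
  have M1 : M 1 = 1 := ext _ _ fun v => by rw [← hM]; simp
  have Mm : ∀ g g', M (g * g') = M g * M g' := fun g g' => ext _ _ fun v => by
    rw [← mulVec_mulVec, ← hM, ← hM, ← hM]; group
  have δm : ∀ g g', δ (g * g') = δ g + M g *ᵥ δ g' := fun g g' => h.inj (by
    rw [h.add, ← hM, hδ, hδ, hδ, h2 g (hD.sup_eq_top ▸ mem_top g) g' (hD.sup_eq_top ▸ mem_top g')]; rfl)
  have δ1 : δ 1 = 0 := by simpa [M1] using δm 1 1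
  let f : G →* Matrix (Fin 3) (Fin 3) F :=
    { toFun := fun g => !![M g 0 0, M g 0 1, δ g 0; M g 1 0, M g 1 1, δ g 1; 0, 0, 1]
      map_one' := by ext i j; fin_cases i <;> fin_cases j <;> simp [M1, δ1]
      map_mul' := fun g g' => by
        ext i j
        fin_cases i <;> fin_cases j <;>
          simp [Mm, δm, Matrix.mul_apply, Fin.sum_univ_three, mulVec, dotProduct, add_comm] }
  refine ⟨(QuotientGroup.mk' _).comp f.toHomUnits, (injective_iff_map_eq_one _).2 fun g hg => ?_⟩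
  obtain ⟨c, hc⟩ := GeneralLinearGroup.mem_center_iff_val_mem_range_scalar.1 ((QuotientGroup.eq_one_iff _).1 hg)
  have e : ∀ i j, scalar (Fin 3) c i j = !![M g 0 0, M g 0 1, δ g 0; M g 1 0, M g 1 1, δ g 1; 0, 0, 1] i j :=
    fun i j => congrFun (congrFun hc i) j
  have c1 : c = 1 := by simpa using e 2 2
  have e1 : M g = 1 := by
    ext i j
    fin_cases i <;> fin_cases j
    · simpa [c1] using (e 0 0).symm
    · simpa using (e 0 1).symm
    · simpa using (e 1 0).symm
    · simpa [c1] using (e 1 1).symm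
  have e2 : δ g = 0 := by
    ext i
    fin_cases i
    · simpa using (e 0 2).symm
    · simpa using (e 1 2).symm
  have hA : g ∈ A := hC fun a ha => by
    obtain ⟨v, rfl⟩ := h.surj a ha
    have := hM g v
    rw [e1, one_mulVec] at this
    exact (mul_inv_eq_iff_eq_mul.1 this).symm
  rw [← h.zero, ← e2, hδ, h3 g ⟨g, hA⟩ (by simp)]

theorem emb_of_normal [Fintype F] (hF : Fintype.card F = 4) {L : Subgroup G} [L.Normal]
    (e : L ≃* ProjectiveSpecialLinearGroup (Fin 3) F) (hC : centralizer (L : Set G) = ⊥) (ho : Odd L.index) :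
    Emb F G := by
  obtain ⟨π, hπ, -⟩ := CL.GLn.exists_outHom_three (F := F) (n := 3) le_rfl
  let φ : G →* MulAut (ProjectiveSpecialLinearGroup (Fin 3) F) := (MulAut.congr e).toMonoidHom.comp MulAut.conjNormal
  have h1 : Function.Injective φ := (injective_iff_map_eq_one _).2 fun g hg => by
    have h2 : MulAut.conjNormal g = (1 : MulAut L) := (MulAut.congr e).injective (hg.trans (map_one _).symm)
    refine mem_bot.1 (hC ▸ fun l hl => ?_)
    exact (mul_inv_eq_iff_eq_mul.1 (congrArg Subtype.val (DFunLike.congr_fun h2 ⟨l, hl⟩))).symm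
  have h2 : ∀ l ∈ L, π (φ l) = 1 := fun l hl => by
    obtain ⟨s, hs⟩ := QuotientGroup.mk_surjective (e ⟨l, hl⟩)
    refine MonoidHom.mem_ker.1 (hπ ▸ CL.GLn.mem_inndiagPSL.2 ⟨SpecialLinearGroup.toGL s, ?_⟩)
    rw [CL.GLn.diagAut_toGL, hs]
    ext y
    obtain ⟨z, rfl⟩ := e.surjective y
    rw [MulAut.conj_apply, ← map_inv, ← map_mul, ← map_mul]
    exact congrArg e (Subtype.ext (by simp))
  have h3 : ∀ g, φ g ∈ (CL.GLn.diagAut (Fin 3) F).range := fun g => by
    refine CL.GLn.mem_inndiagPSL.1 (hπ ▸ MonoidHom.mem_ker.2 ?_)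
    obtain ⟨k, hk⟩ := ho
    have h4 := h2 _ (pow_index_mem L g)
    have h5 : π (φ g) ^ 2 = 1 := Prod.ext ((sq _).trans (ringEquiv_sq hF _)) 
      ((by decide : ∀ z : Multiplicative (ZMod 2), z ^ 2 = 1) _)
    rwa [map_pow, map_pow, hk, pow_succ, pow_mul, h5, one_pow, one_mul] at h4
  let j := (QuotientGroup.quotientKerEquivRange _).symm.trans (QuotientGroup.quotientMulEquivOfEq
    (CL.GLn.ker_diagAut (n := Fin 3) (F := F)))
  exact ⟨j.toMonoidHom.comp (φ.codRestrict _ h3), fun a b h => h1 (congrArg Subtype.val (j.injective h))⟩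

end CL.C2Low.L34
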