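/-
`PGU₃(q)`, `q` even, part 1: automorphisms of a model of `PSU₃(q)` centralising the centre of the unipotent group,
and the abstract description of `PGU₃(q)` as an extension of `PSU₃(q)` by diagonal automorphisms.
-/
import Cfsg.Agent.Chev.U3Even

set_option autoImplicit false

namespace CL.Chev.U3

variable {F : Type*} [Field F]

namespace UF

variable {S : UF F}

/-- The action of `diag(1, l, 1)` on the unipotent group. -/
def Q.rot (l : F) (hl : l * S.σ l = 1) (u : S.Q) : S.Q :=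
  ⟨l * u.a, u.b, by rw [map_mul]; linear_combination u.h + u.a * S.σ u.a * hl⟩

@[simp] theorem Q.rot_a (l : F) (hl : l * S.σ l = 1) (u : S.Q) : (Q.rot l hl u).a = l * u.a := rfl
@[simp] theorem Q.rot_b (l : F) (hl : l * S.σ l = 1) (u : S.Q) : (Q.rot l hl u).b = u.b := rfl

theorem Q.rot_of_a (l : F) (hl : l * S.σ l = 1) {u : S.Q} (h : u.a = 0) : Q.rot l hl u = u :=
  Q.ext (by simp [h]) rfl

theorem norm_mul {l m : F} (hl : l * S.σ l = 1) (hm : m * S.σ m = 1) : l * m * S.σ (l * m) = 1 := by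
  rw [map_mul]; linear_combination m * S.σ m * hl + hm

theorem Q.rot_rot {l m : F} (hl : l * S.σ l = 1) (hm : m * S.σ m = 1) (u : S.Q) :
    Q.rot l hl (Q.rot m hm u) = Q.rot (l * m) (norm_mul hl hm) u := Q.ext (by simp [mul_assoc]) rfl

theorem Q.rot_one (h : (1 : F) * S.σ 1 = 1) (u : S.Q) : Q.rot 1 h u = u := Q.ext (by simp) rfl

/-- A norm-preserving `F_q`-linear map of `F` is `a ↦ l a` or `a ↦ l σ a`. -/
theorem lin_cases [CharP F 2] (f : F → F) (hadd : ∀ a b, f (a + b) = f a + f b)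
    (hsm : ∀ c a, S.σ c = c → f (c * a) = c * f a) (hN : ∀ a, S.σ (f a) * f a = S.σ a * a) :
    ∃ l, l * S.σ l = 1 ∧ ((∀ a, f a = l * a) ∨ ∀ a, f a = l * S.σ a) := by
  obtain ⟨θ, hθ⟩ := S.bar.exists_ne
  have h2 : (2 : F) = 0 := CharTwo.two_eq_zero
  have hd : θ - S.σ θ ≠ 0 := sub_ne_zero.2 hθ.symm
  have hd' : S.σ θ - θ ≠ 0 := sub_ne_zero.2 hθ
  set α := (f θ - S.σ θ * f 1) / (θ - S.σ θ) with hα
  set β := f 1 - α with hβ
  have e1 : f θ = α * θ + β * S.σ θ := by rw [hβ, hα]; field_simp; ring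
  have key : ∀ a, f a = α * a + β * S.σ a := by
    intro a
    have ht : S.σ ((a - S.σ a) / (θ - S.σ θ)) = (a - S.σ a) / (θ - S.σ θ) := by
      simp only [map_div₀, map_sub, σσ]; field_simp; ring
    set t := (a - S.σ a) / (θ - S.σ θ) with htd
    have ht2 : t * (θ - S.σ θ) = a - S.σ a := by rw [htd]; field_simp
    have hs : S.σ (a - t * θ) = a - t * θ := by
      rw [map_sub, map_mul, ht]; linear_combination ht2
    have e : a = (a - t * θ) * 1 + t * θ := by ring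
    have e' : f a = (a - t * θ) * f 1 + t * f θ := by
      conv_lhs => rw [e]
      rw [hadd, hsm _ _ hs, hsm _ _ ht]
    rw [e', e1, show f 1 = α + β by rw [hβ]; ring]
    linear_combination (-β) * ht2
  have n1 := hN 1
  have n2 := hN θ
  have n3 := hN (θ + 1)
  rw [key] at n1 n2 n3
  simp only [map_add, map_mul, σσ, map_one] at n1 n2 n3
  have hκ : (α * S.σ α + β * S.σ β - 1) * (θ - S.σ θ) = 0 := by
    linear_combination n3 - n2 - n1 -
      (S.σ θ * (α * S.σ α + β * S.σ β - 1) + α * S.σ β * θ + β * S.σ α * S.σ θ) * h2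
  have hκ' := (mul_eq_zero.1 hκ).resolve_right hd
  have hγ : α * S.σ β * (θ - S.σ θ) ^ 2 = 0 := by
    linear_combination n2 - S.σ θ ^ 2 * n1 - (θ * S.σ θ - S.σ θ ^ 2) * hκ' +
      (α * S.σ β * S.σ θ ^ 2 - α * S.σ β * θ * S.σ θ) * h2
  have hγ' := (mul_eq_zero.1 hγ).resolve_right (pow_ne_zero 2 hd)
  rcases mul_eq_zero.1 hγ' with h | h
  · exact ⟨β, by rw [h] at hκ'; linear_combination hκ', Or.inr fun a => by rw [key, h]; ring⟩
  · have h' := S.σ_eq_zero.1 h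
    exact ⟨α, by rw [h'] at hκ'; linear_combination hκ', Or.inl fun a => by rw [key, h']; ring⟩

end UF

namespace Model

variable {L : Type*} [Group L] (M : Model L F)

/-- `α` normalises `U` and `U ^ w` and centralises `Z(U)`. -/
structure Nice (α : L ≃* L) : Prop where
  hU : ∀ u, ∃ v, α (M.T u) = M.T v
  hZ : ∀ u : M.Q, u.a = 0 → α (M.T u) = M.T u
  hW : ∀ u, ∃ v, α (M.w * M.T u * M.w) = M.w * M.T v * M.w

variable {M}

/-- The central element with `b = 1`. -/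
def z1 [CharP F 2] (S : UF F) : S.Q := UF.Q.z 1 (by rw [map_one, CharTwo.neg_eq])

theorem z1_ne [CharP F 2] (S : UF F) : z1 S ≠ 1 := fun h => one_ne_zero (congrArg UF.Q.b h)

theorem Nice.mem_B [CharP F 2] {α : L ≃* L} (h : M.Nice α) {g : L} (hg : g ∈ M.B) : α g ∈ M.B := by
  have h1 : M.T (z1 M.toUF) ≠ 1 := fun e => z1_ne _ (M.T_eq_one.1 e)
  refine M.mem_B_of_conj_mem (M.T_mem_U (z1 M.toUF)) h1 ?_
  obtain ⟨u, hu⟩ := M.mem_U.1 (M.conj_mem_U hg (M.T_mem_U (z1 M.toUF)))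
  obtain ⟨v, hv⟩ := h.hU u
  rw [← h.hZ _ rfl, ← map_inv, ← map_mul, ← map_mul, hu, hv]
  exact M.T_mem_B v

theorem Nice.w_mul_mem [CharP F 2] {α : L ≃* L} (h : M.Nice α) : M.w * α M.w ∈ M.B := by
  have h1 : M.T (z1 M.toUF) ≠ 1 := fun e => z1_ne _ (M.T_eq_one.1 e)
  refine M.mem_B_of_conj_mem (M.T_mem_U (z1 M.toUF)) h1 ?_
  obtain ⟨v, hv⟩ := h.hW (z1 M.toUF)
  rw [map_mul, map_mul, h.hZ _ rfl] at hv
  have e : M.w * α M.w * M.T (z1 M.toUF) * (M.w * α M.w)⁻¹ = M.T v := by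
    rw [mul_inv_rev, ← map_inv, M.w_inv]
    calc _ = M.w * (α M.w * M.T (z1 M.toUF) * α M.w) * M.w := by group
      _ = (M.w * M.w) * M.T v * (M.w * M.w) := by rw [hv]; group
      _ = _ := by rw [M.w_mul_w]; group
  rw [e]
  exact M.T_mem_B v

theorem Nice.Dw_smul [CharP F 2] {α : L ≃* L} (h : M.Nice α) (c : Fˣ) : α (M.D c * M.w) • M.inf = M.pt 1 := by
  have e : M.D c * M.w = M.w * M.D (Units.map M.σ c)⁻¹ := by
    rw [← M.w_conj_D, ← mul_assoc, ← mul_assoc, M.w_mul_w, one_mul]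
  have e2 : α M.w = M.w * (M.w * α M.w) := by rw [← mul_assoc, M.w_mul_w, one_mul]
  rw [e, map_mul, mul_smul, M.mem_B.1 (h.mem_B (M.D_mem_B _)), e2, mul_smul, M.mem_B.1 h.w_mul_mem, M.w_smul_inf]

theorem Nice.wTw_smul [CharP F 2] {α : L ≃* L} (h : M.Nice α) {u v : M.Q} (hu : u ≠ 1)
    (hv : α (M.T u.wAct) = M.T v) : α (M.w * M.T u * M.w) • M.inf = M.pt v := by
  rw [M.w_T_w hu, mul_assoc (M.T _), map_mul, map_mul, mul_smul, mul_smul, M.mem_B.1 (h.mem_B (M.T_mem_B _)),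
    h.Dw_smul, hv, M.T_smul_pt, mul_one]

theorem wTw_inf {u : M.Q} (hu : u ≠ 1) : (M.w * M.T u * M.w) • M.inf = M.pt u.wAct := by
  rw [mul_smul, mul_smul, M.w_smul_inf, M.T_smul_pt, mul_one, M.w_smul_pt hu]

theorem Nice.wAct_eq [CharP F 2] {α : L ≃* L} (h : M.Nice α) {u v v' : M.Q} (hu : u ≠ 1)
    (hv : α (M.T u.wAct) = M.T v) (hv' : α (M.w * M.T u * M.w) = M.w * M.T v' * M.w) : v = v'.wAct := by
  have h1 : v' ≠ 1 := by
    rintro rfl
    rw [map_one, mul_one, M.w_mul_w, map_eq_one_iff _ α.injective] at hv'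
    have : M.T u = M.w * (M.w * M.T u * M.w) * M.w := by
      rw [← mul_assoc, ← mul_assoc, M.w_mul_w, one_mul, mul_assoc, M.w_mul_w, mul_one]
    rw [hv', mul_one, M.w_mul_w] at this
    exact hu (M.T_eq_one.1 this)
  have := h.wTw_smul hu hv
  rw [hv', wTw_inf h1] at this
  exact (M.pt_inj.1 this).symm

theorem Nice.Dw_eq [CharP F 2] {α : L ≃* L} (h : M.Nice α) {c : Fˣ} (hc : M.σ c = c) :
    α (M.D c * M.w) = M.D c * M.w := by
  let u : M.Q := UF.Q.z ((c⁻¹ : Fˣ) : F) (by rw [CharTwo.neg_eq, Units.val_inv_eq_inv_val, map_inv₀, hc])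
  have hu : u ≠ 1 := fun e => (c⁻¹).ne_zero (congrArg UF.Q.b e)
  have ha : u.wAct.a = 0 := by simp [UF.Q.wAct_a, u, UF.Q.z_a]
  obtain ⟨v, hv⟩ := h.hW u
  have e := h.wAct_eq hu (h.hZ _ ha) hv
  have e' : u = v := by rw [← u.wAct_wAct, e, v.wAct_wAct]
  subst e'
  have hc' : (Units.mk0 (M.σ u.b) (M.toUF.σ_ne_zero (UF.Q.b_ne_zero hu)))⁻¹ = c := by
    rw [inv_eq_iff_eq_inv]
    exact Units.ext (by simp [u, UF.Q.z_b, hc])
  have hb : (u⁻¹.wAct⁻¹).a = 0 := by simp [UF.Q.wAct_a, u, UF.Q.z_a]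
  rw [M.w_T_w hu, hc', mul_assoc (M.T _), map_mul, map_mul, h.hZ _ ha, h.hZ _ hb, mul_left_inj,
    mul_right_inj] at hv
  exact hv

theorem Nice.w_eq [CharP F 2] {α : L ≃* L} (h : M.Nice α) : α M.w = M.w := by
  simpa using h.Dw_eq (c := 1) (by simp)

theorem Nice.D_eq [CharP F 2] {α : L ≃* L} (h : M.Nice α) {c : Fˣ} (hc : M.σ c = c) : α (M.D c) = M.D c := by
  have := h.Dw_eq hc
  rwa [map_mul, h.w_eq, mul_left_inj] at this

theorem Nice.cases [CharP F 2] {α : L ≃* L} (h : M.Nice α) : ∃ l, ∃ hl : l * M.σ l = 1,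
    (∀ u, α (M.T u) = M.T (UF.Q.rot l hl u)) ∨
      ∀ u v, α (M.T u) = M.T v → v.a = l * M.σ u.a ∧ v.b = M.σ u.b := by
  choose φ hφ using h.hU
  have hmul : ∀ u v, φ (u * v) = φ u * φ v := fun u v => M.T_inj (by rw [← hφ, map_mul, map_mul, hφ, hφ, map_mul])
  have hz : ∀ u : M.Q, u.a = 0 → φ u = u := fun u hu => M.T_inj (by rw [← hφ, h.hZ u hu])
  have hwd : ∀ u v : M.Q, u.a = v.a → (φ u).a = (φ v).a := fun u v e => by
    have h0 : (v⁻¹ * u).a = 0 := by simp [e]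
    rw [show u = v * (v⁻¹ * u) by group, hmul, hz _ h0, UF.Q.mul_a, h0, add_zero]
  have hsm : ∀ (c : Fˣ) (u : M.Q), M.σ c = c → φ (c • u) = c • φ u := fun c u hc => M.T_inj (by
    rw [← hφ, ← M.D_conj_T, ← M.D_conj_T, map_mul, map_mul, map_inv, h.D_eq hc, hφ])
  have hw : ∀ u : M.Q, u ≠ 1 → φ u.wAct = (φ u).wAct := fun u hu =>
    h.wAct_eq hu (hφ _) (by rw [map_mul, map_mul, h.w_eq, hφ])
  choose s hs using M.toUF.exists_Q
  let f : F → F := fun a => (φ (s a)).a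
  have hf : ∀ u : M.Q, (φ u).a = f u.a := fun u => hwd _ _ (hs _).symm
  obtain ⟨l, hl, hc⟩ := UF.lin_cases (S := M.toUF) f
    (fun a b => by rw [← hs a, ← hs b, ← UF.Q.mul_a, ← hf, ← hf, ← hf, hmul, UF.Q.mul_a])
    (fun c a hc => by
      by_cases h0 : c = 0
      · rw [h0, zero_mul, zero_mul, ← UF.Q.one_a (S := M.toUF), ← hf, hz _ rfl]
      · have e : ∀ u : M.Q, (Units.mk0 c h0 • u).a = c * u.a := fun u => by
          rw [UF.Q.smul_a, Units.val_mk0, hc]; field_simp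
        rw [← hs a, ← e, ← hf, ← hf, hsm _ _ hc, e])
    (fun a => by
      rw [← hs a, ← hf, ← UF.Q.mul_self_b, ← UF.Q.mul_self_b, ← hmul, hz _ (UF.Q.mul_self_a _)])
  have hl0 : l ≠ 0 := by rintro rfl; simp at hl
  have hne : ∀ u : M.Q, u ≠ 1 → φ u ≠ 1 := fun u hu e => hu (M.T_eq_one.1 (α.injective (by
    rw [hφ, e, map_one, map_one])))
  refine ⟨l, hl, hc.imp (fun hc u => ?_) fun hc u v hv => ?_⟩
  · rw [hφ]
    congr 1
    by_cases ha : u.a = 0
    · rw [hz u ha, UF.Q.rot_of_a l hl ha]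
    have hu : u ≠ 1 := fun e => ha (by rw [e]; rfl)
    have e := congrArg UF.Q.a (hw u hu)
    rw [hf, hc, UF.Q.wAct_a, UF.Q.wAct_a, hf, hc] at e
    have b1 := UF.Q.b_ne_zero hu
    have b2 := UF.Q.b_ne_zero (hne u hu)
    refine UF.Q.ext (by rw [hf, hc]; rfl) ?_
    field_simp at e
    exact neg_injective e
  · have e0 : v = φ u := M.T_inj (by rw [← hv, hφ])
    subst e0
    refine ⟨by rw [hf, hc], ?_⟩
    by_cases ha : u.a = 0
    · rw [hz u ha, UF.Q.σ_b_eq_of_a ha]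
    have hu : u ≠ 1 := fun e => ha (by rw [e]; rfl)
    have e := congrArg UF.Q.a (hw u hu)
    rw [hf, hc, UF.Q.wAct_a, UF.Q.wAct_a, hf, hc, map_div₀, map_neg] at e
    have b1 := M.toUF.σ_ne_zero (UF.Q.b_ne_zero hu)
    have b2 := UF.Q.b_ne_zero (hne u hu)
    have b3 := M.toUF.σ_ne_zero ha
    field_simp at e
    exact neg_injective e

/-- The square of a nice automorphism is diagonal. -/
theorem Nice.sq [CharP F 2] {α : L ≃* L} (h : M.Nice α) : ∃ l, ∃ hl : l * M.σ l = 1,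
    ∀ u, α (α (M.T u)) = M.T (UF.Q.rot l hl u) := by
  obtain ⟨l, hl, hc | hc⟩ := h.cases
  · exact ⟨l * l, UF.norm_mul hl hl, fun u => by rw [hc, hc, UF.Q.rot_rot]⟩
  · refine ⟨1, by simp, fun u => ?_⟩
    obtain ⟨v, hv⟩ := h.hU u
    obtain ⟨v', hv'⟩ := h.hU v
    obtain ⟨a1, b1⟩ := hc u v hv
    obtain ⟨a2, b2⟩ := hc v v' hv'
    rw [hv, hv', UF.Q.rot_one]
    congr 1
    refine UF.Q.ext ?_ (by rw [b2, b1, UF.σσ])
    rw [a2, a1, map_mul, UF.σσ]
    linear_combination u.a * hl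

end Model

end CL.Chev.U3
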